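import Mathlib

/-!
# S3694, T13: counting (helper968)
-/

set_option autoImplicit false

namespace Cfsg.Agent.H968.TW

open Subgroup

/-- counting by fibres -/
theorem card_le_fiber {S β : Type*} [Group S] [Finite S] [Finite β] (D C : Set S) (p : ↥D → β)
    (hp : ∀ s s' : ↥D, p s = p s' → (s' : S)⁻¹ * s ∈ C) : Nat.card ↥D ≤ Nat.card β * Nat.card ↥C := by
  choose rep hrep using (fun b : Set.range p => b.2)
  rw [← Nat.card_prod]
  refine Nat.card_le_card_of_injective
    (fun s : ↥D => ((p s, ⟨(rep ⟨p s, s, rfl⟩ : S)⁻¹ * s, hp _ _ (hrep ⟨p s, s, rfl⟩).symm⟩) : β × ↥C)) ?_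
  intro s s' h
  have h1 : p s = p s' := congrArg Prod.fst h
  have h2 : (rep ⟨p s, s, rfl⟩ : S)⁻¹ * s = (rep ⟨p s', s', rfl⟩ : S)⁻¹ * s' := congrArg (fun q : β × ↥C => (q.2 : S)) h
  have h3 : (⟨p s, s, rfl⟩ : Set.range p) = ⟨p s', s', rfl⟩ := Subtype.ext h1
  rw [h3] at h2
  exact Subtype.ext (mul_left_cancel h2)

/-- the automorphisms of a finite field -/
theorem card_aut_le (F : Type*) [Field F] [Finite F] : Nat.card (F ≃+* F) ≤ Nat.card F - 1 := by
  classical
  let _ : Fintype F := Fintype.ofFinite _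
  obtain ⟨g, hg⟩ := IsCyclic.exists_generator (α := Fˣ)
  have h1 : Nat.card Fˣ = Nat.card F - 1 := Nat.card_units F
  rw [← h1]
  refine Nat.card_le_card_of_injective (fun σ : F ≃+* F => Units.map (σ : F →* F) g) ?_
  intro σ ρ h
  ext x
  by_cases hx : x = 0
  · rw [hx, map_zero, map_zero]
  · obtain ⟨k, hk⟩ := mem_zpowers_iff.1 (hg (Units.mk0 x hx))
    have h2 : Units.map (σ : F →* F) (Units.mk0 x hx) = Units.map (ρ : F →* F) (Units.mk0 x hx) := by
      rw [← hk, map_zpow, map_zpow]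
      exact congrArg (· ^ k) h
    exact congrArg Units.val h2

/-- a group of order `v²` and prime exponent is generated by two elements -/
theorem exists_two_gen {G : Type*} [Group G] [Finite G] {X : Subgroup G} {r v : ℕ} (hr : r.Prime) (hv : v.Prime)
    (hX : Nat.card ↥X = v * v) (hexp : ∀ x ∈ X, x ^ r = 1) :
    ∃ x ∈ X, ∃ y ∈ X, x ≠ 1 ∧ y ≠ 1 ∧ X ≤ closure {x, y} := by
  have hv2 := hv.two_le
  have hne : X ≠ ⊥ := by
    rintro rfl
    rw [card_bot] at hX
    nlinarith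
  obtain ⟨⟨x, hx⟩, hx1⟩ := Subgroup.ne_bot_iff_exists_ne_one.1 hne
  have hx1' : x ≠ 1 := fun h => hx1 (Subtype.ext h)
  have hrf : Fact r.Prime := ⟨hr⟩
  have hox : orderOf x = r := orderOf_eq_prime (hexp x hx) hx1'
  have hrv : r = v := by
    have h1 : orderOf x ∣ Nat.card ↥X := by
      rw [← Subgroup.orderOf_mk x hx]
      exact orderOf_dvd_natCard _
    rw [hox, hX] at h1
    rcases (Nat.Prime.dvd_mul hr).1 h1 with h2 | h2 <;> exact (Nat.prime_dvd_prime_iff_eq hr hv).1 h2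
  have hxX : zpowers x ≤ X := zpowers_le.2 hx
  obtain ⟨y, hy, hyx⟩ : ∃ y ∈ X, y ∉ zpowers x := by
    by_contra hcon
    push Not at hcon
    have h1 : zpowers x = X := le_antisymm hxX hcon
    have h2 : Nat.card ↥X = r := by rw [← h1, Nat.card_zpowers, hox]
    rw [hX, hrv] at h2
    nlinarith
  refine ⟨x, hx, y, hy, hx1', fun h => hyx (by rw [h]; exact one_mem _), ?_⟩
  have hcX : closure {x, y} ≤ X := by
    rw [closure_le]
    rintro z (rfl | hz)
    · exact hx
    · rw [Set.mem_singleton_iff] at hz; rw [hz]; exact hy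
  have hxc : zpowers x ≤ closure {x, y} := zpowers_le.2 (subset_closure (Or.inl rfl))
  have hd1 : Nat.card ↥(closure {x, y}) ∣ v * v := by rw [← hX]; exact card_dvd_of_le hcX
  have hd2 : v ∣ Nat.card ↥(closure {x, y}) := by
    have := card_dvd_of_le hxc
    rwa [Nat.card_zpowers, hox, hrv] at this
  have hlt : v < Nat.card ↥(closure {x, y}) := by
    refine lt_of_le_of_ne (Nat.le_of_dvd Nat.card_pos hd2) fun h => ?_
    have h1 : zpowers x = closure {x, y} := by
      apply Subgroup.eq_of_le_of_card_ge hxc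
      rw [Nat.card_zpowers, hox, hrv, ← h]
    exact hyx (by rw [h1]; exact subset_closure (Or.inr rfl))
  have heq : Nat.card ↥(closure {x, y}) = v * v := by
    obtain ⟨m, hm⟩ := hd2
    rw [hm] at hd1 hlt ⊢
    have h3 : m ∣ v := Nat.dvd_of_mul_dvd_mul_left hv.pos hd1
    rcases (Nat.dvd_prime hv).1 h3 with rfl | rfl
    · omega
    · rfl
  exact (Subgroup.eq_of_le_of_card_ge hcX (by rw [hX, heq])).ge

theorem card_mat (F : Type*) [Finite F] (w : ℕ) : Nat.card (Matrix (Fin w) (Fin w) F) = (Nat.card F ^ w) ^ w := by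
  have h : Nat.card (Matrix (Fin w) (Fin w) F) = Nat.card (Fin w → Fin w → F) := rfl
  rw [h, Nat.card_fun, Nat.card_fun, Nat.card_fin]

/-- the numerical estimate -/
theorem numeric {v w q : ℕ} (hv : (v = 2 ∧ q ≤ 9) ∨ (v = 3 ∧ q = 4)) (hw : (w = 2 ∧ q ≤ 9) ∨ (w = 3 ∧ q = 4)) :
    (v * v - 1) * (v * v - 1) * (v * v * (q ^ w) ^ w) * (2 * (q - 1)) ≤ 955514880 := by
  rcases hv with ⟨rfl, hq⟩ | ⟨rfl, rfl⟩ <;> rcases hw with ⟨rfl, hq'⟩ | ⟨rfl, hq'⟩
  · interval_cases q <;> norm_num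
  · subst hq'; norm_num
  · norm_num
  · norm_num

end Cfsg.Agent.H968.TW
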