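import Cfsg.Agent.H968.TW.NonabK
import Cfsg.Agent.H968.TW.Count

/-!
# S3694, T13: the nonabelian case (helper968)
-/

set_option autoImplicit false

namespace Cfsg.Agent.H968.TW

open Subgroup Cfsg.Agent.H607.TW

universe u

variable {G : Type u} [Group G] [Finite G] {N A X : Subgroup G} {r : ℕ} {F : Type} [Field F] [Fintype F] {n : ℕ}
  {S : Type} [Group S] {ι : S →* Matrix.GeneralLinearGroup (Fin n) F} {π : S →* G}

omit [Finite G] [Fintype F] in
/-- the elements of `S` with matrices centralizing `B` -/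
def CB (ι : S →* Matrix.GeneralLinearGroup (Fin n) F) (B : Subalgebra F (Matrix (Fin n) (Fin n) F)) : Subgroup S where
  carrier := {s | ∀ y ∈ B, H607.TW.mt ι s * y = y * H607.TW.mt ι s}
  one_mem' := fun y _ => by rw [mt_one, one_mul, mul_one]
  mul_mem' := by
    intro a b ha hb y hy
    rw [mt_mul, mul_assoc, hb y hy, ← mul_assoc, ha y hy, mul_assoc]
  inv_mem' := by
    intro a ha y hy
    have h1 : H607.TW.mt ι a⁻¹ * H607.TW.mt ι a = 1 := by rw [← mt_mul, inv_mul_cancel, mt_one]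
    have h2 : H607.TW.mt ι a * H607.TW.mt ι a⁻¹ = 1 := by rw [← mt_mul, mul_inv_cancel, mt_one]
    calc H607.TW.mt ι a⁻¹ * y = H607.TW.mt ι a⁻¹ * y * (H607.TW.mt ι a * H607.TW.mt ι a⁻¹) := by rw [h2, mul_one]
      _ = H607.TW.mt ι a⁻¹ * (y * H607.TW.mt ι a) * H607.TW.mt ι a⁻¹ := by simp only [mul_assoc]
      _ = H607.TW.mt ι a⁻¹ * H607.TW.mt ι a * y * H607.TW.mt ι a⁻¹ := by rw [← ha y hy]; simp only [mul_assoc]
      _ = y * H607.TW.mt ι a⁻¹ := by rw [h1, one_mul]

omit [Finite G] [Fintype F] in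
theorem ker_CB (hM : Model N ι π) {B : Subalgebra F (Matrix (Fin n) (Fin n) F)} {s : S} (hs : π s = 1) :
    s ∈ CB ι B := by
  obtain ⟨c, hc⟩ := (hM.ker s).1 hs
  intro y _
  rw [hc, smul_mul_assoc, one_mul, mul_smul_comm, mul_one]

omit [Finite G] in
/-- an element commuting with `X` is a product of an element of `X̂` and one of `C(B)` -/
theorem exists_t0 (hM : Model N ι π) (hK : Tw (KX ι π X)) {s : S} (hs : ∀ t, π t ∈ X → π s * π t = π t * π s) :
    ∃ t₀ : S, π t₀ ∈ X ∧ t₀⁻¹ * s ∈ CB ι (Algebra.adjoin F (H607.TW.mt ι '' {s | π s ∈ X})) := by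
  obtain ⟨k₀, ⟨t₀, ht₀, rfl⟩, hk⟩ := Cfsg.Agent.H502.TW.tw_diag hK (ι s) (by
    rintro _ ⟨t, ht, rfl⟩
    exact comm_scalar hM (hs t ht))
  refine ⟨t₀, ht₀, ?_⟩
  have h1 : Algebra.adjoin F (H607.TW.mt ι '' {s | π s ∈ X}) ≤
      Subalgebra.centralizer F {H607.TW.mt ι (t₀⁻¹ * s)} := by
    apply Algebra.adjoin_le
    rintro _ ⟨t, ht, rfl⟩
    rw [SetLike.mem_coe, Subalgebra.mem_centralizer_iff]
    intro z hz
    rw [Set.mem_singleton_iff] at hz
    rw [hz, ← mt_mul, ← mt_mul]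
    unfold H607.TW.mt
    congr 1
    have h2 := hk _ ⟨t, ht, rfl⟩
    rw [← map_inv, ← map_mul, ← map_mul, ← map_mul] at h2
    exact h2
  intro y hy
  exact ((Subalgebra.mem_centralizer_iff F).1 (h1 hy) _ rfl)

/-- `|A|` in terms of the preimage -/
theorem card_A_le (h : Loc N A r) (hM : Model N ι π)
    (hidx : N.index ≤ 2 * Nat.card (F ≃+* F) * Nat.card π.ker) :
    Nat.card ↥A ≤ Nat.card ↥(A.comap π) * (2 * Nat.card (F ≃+* F)) := by
  have hfS : Finite S := hM.finite_S
  let f : ↥(A.comap π) →* G := π.comp (A.comap π).subtype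
  have hrange : f.range = A ⊓ N := by
    ext x
    constructor
    · rintro ⟨s, rfl⟩
      exact ⟨s.2, hM.mem s⟩
    · rintro ⟨h1, h2⟩
      obtain ⟨s, rfl⟩ := hM.exists_pre h2
      exact ⟨⟨s, h1⟩, rfl⟩
  have hle : π.ker ≤ A.comap π := by
    intro s hs
    rw [MonoidHom.mem_ker] at hs
    rw [mem_comap, hs]
    exact A.one_mem
  have hker : Nat.card ↥f.ker = Nat.card ↥π.ker := by
    have h1 : f.ker = π.ker.subgroupOf (A.comap π) := by
      ext s
      rw [MonoidHom.mem_ker, mem_subgroupOf, MonoidHom.mem_ker]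
      rfl
    rw [h1]
    exact Nat.card_congr (subgroupOfEquivOfLe hle).toEquiv
  have h1 : Nat.card ↥f.ker * f.ker.index = Nat.card ↥(A.comap π) := f.ker.card_mul_index
  rw [Subgroup.index_ker, hrange, hker] at h1
  have h2 := h.card_le
  calc Nat.card ↥A ≤ Nat.card ↥(A ⊓ N : Subgroup G) * N.index := h2
    _ ≤ Nat.card ↥(A ⊓ N : Subgroup G) * (2 * Nat.card (F ≃+* F) * Nat.card π.ker) := Nat.mul_le_mul_left _ hidx
    _ = Nat.card ↥(A.comap π) * (2 * Nat.card (F ≃+* F)) := by rw [← h1]; ring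

/-- T13 : the nonabelian case -/
theorem type_nonab (h : Loc N A r)
    (_hr : ¬ r ∣ Fintype.card F) (hM : Model N ι π) (hS : SemiAx ι π A) (hC : CompAx ι π A)
    (hidx : N.index ≤ 2 * Nat.card (F ≃+* F) * Nat.card π.ker) {X : Subgroup G} (hX : MinX N A X r)
    (hnon : ∃ s t : S, π s ∈ X ∧ π t ∈ X ∧ s * t ≠ t * s) : Extra ι π N A r ∨ Nat.card ↥A ≤ M 5 := by
  have hfS : Finite S := hM.finite_S
  have hK := tw_K hM hX hnon
  have hInvB : Inv ι π A (Algebra.adjoin F (H607.TW.mt ι '' {s | π s ∈ X})) := Inv.adjoin hX.norm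
  have hcX := card_X hM hX hnon
  have hex := fun {s : S} (hs : ∀ t, π t ∈ X → π s * π t = π t * π s) => exists_t0 hM hK hs
  obtain ⟨B, hB⟩ : ∃ B, B = Algebra.adjoin F (H607.TW.mt ι '' {s | π s ∈ X}) := ⟨_, rfl⟩
  have hspan := adjoin_eq_span (ι := ι) (π := π) (X := X)
  rw [← coe_KX] at hspan
  have hgen : ∀ s : S, π s ∈ X → H607.TW.mt ι s ∈ B := fun s hs => by rw [hB]; exact Algebra.subset_adjoin ⟨s, hs, rfl⟩
  rw [← hB] at hInvB hcX hex
  rw [coe_KX, ← hB, ← coe_KX] at hspan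
  obtain ⟨v, w, φ, ψ, hvw, hvv, hφ, hψ, hφ1, hψ1, hφr, hψr⟩ :=
    Cfsg.Agent.H502.TW.tw_tensor hM.pos hK B hspan (hS B hInvB)
  rw [← hvv] at hcX
  have hn := hM.two
  have hne : Nonempty (Fin n) := ⟨⟨0, by omega⟩⟩
  have hnoncomm : ¬ ∀ x ∈ B, ∀ y ∈ B, x * y = y * x := by
    intro hc
    obtain ⟨s, t, hs, ht, hst⟩ := hnon
    apply hst
    apply hM.mt_inj
    rw [mt_mul, mt_mul, hc _ (hgen s hs) _ (hgen t ht)]
  have hw0 : w ≠ 0 := by rintro rfl; rw [mul_zero] at hvw; omega
  have hv0 : v ≠ 0 := by rintro rfl; rw [zero_mul] at hvw; omega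
  have hv1 : v ≠ 1 := by
    rintro rfl
    apply hX.ne
    rw [mul_one] at hcX
    exact Subgroup.card_eq_one.1 hcX
  have hfull : Module.finrank F (Matrix (Fin n) (Fin n) F) = n * n := by
    rw [Module.finrank_matrix, Fintype.card_fin, Module.finrank_self, mul_one]
  by_cases hw1 : w = 1
  · -- the extraspecial case
    left
    subst hw1
    rw [mul_one] at hvw
    subst hvw
    have htop : B = ⊤ := by
      rw [← Algebra.toSubmodule_eq_top]
      apply Submodule.eq_top_of_finrank_eq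
      rw [hfull]
      exact hvv.symm
    have hscal : ∀ s : S, s ∈ CB ι B → π s = 1 := by
      intro s hs
      rw [hM.ker]
      apply scalar_of_comm
      intro y
      exact hs y (by rw [htop]; exact Algebra.mem_top)
    have hself : ∀ g ∈ N, (∀ k ∈ X, g * k = k * g) → g ∈ X := by
      intro g hg hgk
      obtain ⟨s, rfl⟩ := hM.exists_pre hg
      obtain ⟨t₀, ht₀, h1⟩ := hex (s := s) fun t ht => hgk _ ht
      have h2 := hscal _ h1
      rw [map_mul, map_inv, inv_mul_eq_one] at h2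
      rw [← h2]; exact ht₀
    have hEX : OO r A ⊓ N = X := by
      apply le_antisymm _ hX.le
      rintro g ⟨hg1, hg2⟩
      exact hself g hg2 fun k hk => (hX.comm k hk g hg1).symm
    constructor
    · rw [hEX]; exact hX.ne
    · intro K' hK' hK'1 hK'n
      rw [hEX] at hK' ⊢
      exact hX.min K' hK' hK'1 hK'n
    · intro x hx y hy
      rw [hEX] at hx
      exact hX.comm x hx y hy
    · intro x hx
      rw [hEX] at hx
      exact hX.exp x hx
    · rw [hEX]; exact hself
    · intro x hx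
      rw [hEX] at hx
      apply scalar_of_comm
      have h1 : B ≤ Subalgebra.centralizer F {x} := by
        rw [hB]
        apply Algebra.adjoin_le
        rintro _ ⟨t, ht, rfl⟩
        rw [SetLike.mem_coe, Subalgebra.mem_centralizer_iff]
        intro z hz
        rw [Set.mem_singleton_iff] at hz
        rw [hz, hx t ht]
      intro y
      exact (Subalgebra.mem_centralizer_iff F).1 (h1 (by rw [htop]; exact Algebra.mem_top)) _ rfl
    · rw [hEX]; exact hnon
  · -- the small case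
    right
    have hBtop : B ≠ ⊤ := by
      intro htop
      have h1 : v * v = n * n := by
        rw [hvv, htop, ← hfull]
        exact Subalgebra.topEquiv.toLinearEquiv.finrank_eq
      have h2 : v = n := by nlinarith
      rw [h2] at hvw
      exact hw1 (Nat.eq_of_mul_eq_mul_left (by omega : 0 < n) (hvw.trans (mul_one n).symm))
    have hmemE : ∀ x, x ∈ Subalgebra.centralizer F (B : Set (Matrix (Fin n) (Fin n) F)) ↔ ∀ y ∈ B, x * y = y * x := by
      intro x
      rw [Subalgebra.mem_centralizer_iff]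
      exact ⟨fun h1 y hy => (h1 y hy).symm, fun h1 y hy => (h1 y hy).symm⟩
    have hEtop : Subalgebra.centralizer F (B : Set (Matrix (Fin n) (Fin n) F)) ≠ ⊤ := by
      intro h1
      apply hnoncomm
      intro x hx y hy
      have h2 : x ∈ Subalgebra.centralizer F (B : Set (Matrix (Fin n) (Fin n) F)) := by rw [h1]; exact Algebra.mem_top
      exact (hmemE x).1 h2 y hy
    have cv := hC B hInvB hBtop F v φ hφ (fun x => by
      rw [hφr, hφ1, one_mul]
      exact ⟨fun h1 => ⟨h1, rfl⟩, fun h1 => h1.1⟩) (fun x _ => by rw [hφ1, one_mul, mul_one])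
    have cw := hC _ hInvB.centralizer hEtop F w ψ hψ (fun x => by
      rw [hψr, hmemE, hψ1, one_mul]
      exact ⟨fun h1 => ⟨h1, rfl⟩, fun h1 => h1.1⟩) (fun x _ => by rw [hψ1, one_mul, mul_one])
    have cv' : (v = 2 ∧ Nat.card F ≤ 9) ∨ (v = 3 ∧ Nat.card F = 4) := by
      rcases cv with h1 | ⟨h1, -, h2⟩ | ⟨h1, -, h2⟩
      · omega
      · exact Or.inl ⟨h1, h2⟩
      · exact Or.inr ⟨h1, h2⟩
    have cw' : (w = 2 ∧ Nat.card F ≤ 9) ∨ (w = 3 ∧ Nat.card F = 4) := by
      rcases cw with h1 | ⟨h1, -, h2⟩ | ⟨h1, -, h2⟩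
      · omega
      · exact Or.inl ⟨h1, h2⟩
      · exact Or.inr ⟨h1, h2⟩
    have hvp : v.Prime := by
      rcases cv' with ⟨rfl, -⟩ | ⟨rfl, -⟩ <;> norm_num
    obtain ⟨x, hx, y, hy, hx1, hy1, hgenX⟩ := exists_two_gen h.prime hvp hcX hX.exp
    have hXn : ∀ a ∈ A, ∀ x ∈ X, a * x * a⁻¹ ∈ X := fun a ha x hx => conj_mem_of_norm hX.norm ha hx
    -- the subgroup of `S` centralizing `X`
    let Ch : Set S := {s | ∀ t, π t ∈ X → π s * π t = π t * π s}
    let X' := {z : ↥X // z ≠ 1}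
    have hX' : Nat.card X' = v * v - 1 := by
      classical
      have h1 : Nat.card X' = Nat.card ↥X - 1 := by
        let _ : Fintype ↥X := Fintype.ofFinite _
        have h2 : Nat.card X' = Fintype.card {z : ↥X // z ≠ 1} := Nat.card_eq_fintype_card
        have h3 : Nat.card ↥X = Fintype.card ↥X := Nat.card_eq_fintype_card
        rw [h2, h3, Fintype.card_subtype_compl, Fintype.card_subtype_eq]
      rw [h1, hcX]
    have hconj1 : ∀ {g z : G}, z ≠ 1 → g * z * g⁻¹ ≠ 1 := by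
      intro g z hz h1
      apply hz
      calc z = g⁻¹ * (g * z * g⁻¹) * g := by group
        _ = 1 := by rw [h1]; group
    have s1 : Nat.card ↥(A.comap π) ≤ (v * v - 1) * (v * v - 1) * Nat.card ↥Ch := by
      rw [← hX', ← Nat.card_prod]
      refine card_le_fiber (A.comap π : Set S) Ch
        (fun s => ((⟨⟨π s * x * (π s)⁻¹, hXn _ s.2 x hx⟩, fun h1 => hconj1 hx1 (congrArg Subtype.val h1)⟩,
          ⟨⟨π s * y * (π s)⁻¹, hXn _ s.2 y hy⟩, fun h1 => hconj1 hy1 (congrArg Subtype.val h1)⟩) : X' × X')) ?_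
      intro s s' hss t ht
      have e1 : π s * x * (π s)⁻¹ = π s' * x * (π s')⁻¹ := congrArg (fun q : X' × X' => ((q.1 : ↥X) : G)) hss
      have e2 : π s * y * (π s)⁻¹ = π s' * y * (π s')⁻¹ := congrArg (fun q : X' × X' => ((q.2 : ↥X) : G)) hss
      have key : ∀ z : G, π s * z * (π s)⁻¹ = π s' * z * (π s')⁻¹ →
          π ((s' : S)⁻¹ * s) * z = z * π ((s' : S)⁻¹ * s) := by
        intro z hz
        rw [map_mul, map_inv]
        calc (π s')⁻¹ * π s * z = (π s')⁻¹ * (π s * z * (π s)⁻¹) * π s := by group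
          _ = z * ((π s')⁻¹ * π s) := by rw [hz]; group
      have hcl : closure {x, y} ≤ centralizer {π ((s' : S)⁻¹ * s)} := by
        rw [closure_le]
        rintro z (rfl | hz)
        · exact mem_centralizer_singleton_iff.2 (key _ e1).symm
        · rw [Set.mem_singleton_iff] at hz
          rw [hz]
          exact mem_centralizer_singleton_iff.2 (key _ e2).symm
      exact (mem_centralizer_singleton_iff.1 (hcl (hgenX ht))).symm
    have hT : ∀ z : ↥X, ∃ t : S, π t = z := fun z => hM.exists_pre (hX.le z.2).2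
    choose T hTs using hT
    have s2 : Nat.card ↥Ch ≤ (v * v) * Nat.card ↥(CB ι B) := by
      rw [← hcX]
      have hp : ∀ s : ↥Ch, ∃ z : ↥X, (T z)⁻¹ * (s : S) ∈ CB ι B := by
        intro s
        obtain ⟨t₀, ht₀, h1⟩ := hex (s := s) s.2
        refine ⟨⟨π t₀, ht₀⟩, ?_⟩
        have h2 : (T ⟨π t₀, ht₀⟩)⁻¹ * t₀ ∈ CB ι B := by
          apply ker_CB hM
          rw [map_mul, map_inv, hTs, inv_mul_cancel]
        have h3 := (CB ι B).mul_mem h2 h1
        rwa [mul_assoc, mul_inv_cancel_left] at h3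
      choose p hp using hp
      refine card_le_fiber Ch (CB ι B : Set S) p ?_
      intro s s' hss
      have h1 := hp s
      rw [hss] at h1
      have h2 := (CB ι B).mul_mem ((CB ι B).inv_mem (hp s')) h1
      have h3 : ((T (p s'))⁻¹ * (s' : S))⁻¹ * ((T (p s'))⁻¹ * s) = (s' : S)⁻¹ * s := by group
      rwa [h3] at h2
    have s3 : Nat.card ↥(CB ι B) ≤ (Nat.card F ^ w) ^ w := by
      rw [← card_mat]
      have hq : ∀ s : ↥(CB ι B), ∃ m, ψ m = H607.TW.mt ι s := fun s => (hψr _).2 s.2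
      choose q hq using hq
      have hfm : Finite (Matrix (Fin w) (Fin w) F) := inferInstanceAs (Finite (Fin w → Fin w → F))
      refine Nat.card_le_card_of_injective q fun s s' hss => ?_
      apply Subtype.ext
      apply hM.mt_inj
      rw [← hq, ← hq, hss]
    have s4 := card_A_le h hM hidx
    have s5 : Nat.card (F ≃+* F) ≤ Nat.card F - 1 := card_aut_le F
    rw [M_five]
    calc Nat.card ↥A ≤ Nat.card ↥(A.comap π) * (2 * Nat.card (F ≃+* F)) := s4
      _ ≤ ((v * v - 1) * (v * v - 1) * (v * v * (Nat.card F ^ w) ^ w)) * (2 * (Nat.card F - 1)) := by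
        refine Nat.mul_le_mul (s1.trans (Nat.mul_le_mul_left _ (s2.trans (Nat.mul_le_mul_left _ s3))))
          (Nat.mul_le_mul_left _ s5)
      _ ≤ 955514880 := numeric cv' cw'

end Cfsg.Agent.H968.TW
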