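import Cfsg.Agent.H968.TW.InvB
import Mathlib.FieldTheory.KummerPolynomial

/-!
# S3694: the algebra of the field case (helper968)
-/

set_option autoImplicit false

namespace Cfsg.Agent.H968.TW

open Polynomial

variable {F : Type} [Field F] {n : ℕ}

/-- `dim F[x] ≤ r` if `x ^ r` is a scalar -/
theorem finrank_adjoin_le {r : ℕ} (hr : 0 < r) {x : Matrix (Fin n) (Fin n) F} {c : F} (hxr : x ^ r = c • 1) :
    Module.finrank F ↥(Algebra.adjoin F {x}) ≤ r := by
  let f : ↥(degreeLT F r) →ₗ[F] Matrix (Fin n) (Fin n) F := (aeval x).toLinearMap.comp (degreeLT F r).subtype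
  have hmon : (X ^ r - C c : F[X]).Monic := monic_X_pow_sub_C c hr.ne'
  have haev : aeval x (X ^ r - C c : F[X]) = 0 := by
    rw [map_sub, map_pow, aeval_X, aeval_C, hxr, Algebra.algebraMap_eq_smul_one, sub_self]
  have hdeg : (X ^ r - C c : F[X]).degree = r := degree_X_pow_sub_C hr c
  have hle : Subalgebra.toSubmodule (Algebra.adjoin F {x}) ≤ LinearMap.range f := by
    intro y hy
    rw [Subalgebra.mem_toSubmodule, Algebra.adjoin_singleton_eq_range_aeval] at hy
    obtain ⟨p, rfl⟩ := hy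
    refine ⟨⟨p %ₘ (X ^ r - C c), ?_⟩, ?_⟩
    · rw [mem_degreeLT, ← hdeg]
      exact degree_modByMonic_lt _ hmon
    · show aeval x (p %ₘ (X ^ r - C c)) = aeval x p
      conv_rhs => rw [← modByMonic_add_div p (X ^ r - C c)]
      rw [map_add, map_mul, haev, zero_mul, add_zero]
  have h1 : Module.finrank F ↥(Subalgebra.toSubmodule (Algebra.adjoin F {x})) ≤ Module.finrank F ↥(LinearMap.range f) :=
    Submodule.finrank_mono hle
  have h2 : Module.finrank F ↥(LinearMap.range f) ≤ Module.finrank F ↥(degreeLT F r) := by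
    have hfd : Module.Finite F ↥(degreeLT F r) := Module.Finite.equiv (degreeLTEquiv F r).symm
    exact LinearMap.finrank_range_le f
  have h3 : Module.finrank F ↥(degreeLT F r) = r := by
    rw [(degreeLTEquiv F r).finrank_eq, Module.finrank_fin_fun]
  exact h1.trans (h2.trans h3.le)

/-- **The key computation**: `x` a non-scalar element of determinant one of a field `B` of dimension `n ≥ 3`, `x ^ r` scalar;
then no conjugate of `x` is a nontrivial multiple of `x`. -/
theorem eq_one_of_smul (hn : 3 ≤ n) {B : Subalgebra F (Matrix (Fin n) (Fin n) F)}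
    (hcomm : ∀ x ∈ B, ∀ y ∈ B, x * y = y * x) (hinv : ∀ b ∈ B, b ≠ 0 → ∃ c ∈ B, b * c = 1)
    {x : Matrix (Fin n) (Fin n) F} (hxB : x ∈ B) (hxs : ¬ ∃ c : F, x = c • 1) {r : ℕ} (hr : r.Prime) (hnr : n ≤ r)
    {c : F} (hxr : x ^ r = c • 1) (hdet : x.det = 1) {l : F} (hl : l ^ r = 1) : l = 1 := by
  by_contra hl1
  have hne : Nonempty (Fin n) := ⟨⟨0, by omega⟩⟩
  have hc0 : c ≠ 0 := by
    rintro rfl
    rw [zero_smul] at hxr
    have h1 := congrArg Matrix.det hxr
    rw [Matrix.det_pow, hdet, one_pow, Matrix.det_zero] at h1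
    exact one_ne_zero h1
  have hprim : IsPrimitiveRoot l r := by
    rw [IsPrimitiveRoot.iff_orderOf]
    have hrf : Fact r.Prime := ⟨hr⟩
    exact orderOf_eq_prime hl hl1
  by_cases hb : ∃ b : F, b ^ r = c
  · -- `c` is an `r`-th power
    obtain ⟨b, hb⟩ := hb
    have hb0 : b ≠ 0 := by
      rintro rfl
      rw [zero_pow hr.ne_zero] at hb
      exact hc0 hb.symm
    have hprod : (X ^ r - 1 : F[X]) = ∏ ζ ∈ nthRootsFinset r (1 : F), (X - C ζ) :=
      X_pow_sub_one_eq_prod hr.pos hprim
    have hz : aeval (b⁻¹ • x) (X ^ r - 1 : F[X]) = 0 := by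
      rw [map_sub, map_pow, aeval_X, map_one, _root_.smul_pow, hxr, smul_smul, inv_pow, hb, inv_mul_cancel₀ hc0, one_smul,
        sub_self]
    rw [hprod] at hz
    -- a factor vanishes
    have hfac : ∀ s : Finset F, aeval (b⁻¹ • x) (∏ ζ ∈ s, (X - C ζ : F[X])) = 0 → ∃ ζ ∈ s, b⁻¹ • x = ζ • 1 := by
      intro s
      classical
      induction s using Finset.induction_on with
      | empty =>
        intro h
        rw [Finset.prod_empty, map_one] at h
        exact absurd h one_ne_zero
      | insert ζ s hζ ih =>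
        intro h
        rw [Finset.prod_insert hζ, map_mul] at h
        have hBζ : aeval (b⁻¹ • x) (X - C ζ : F[X]) = b⁻¹ • x - ζ • 1 := by
          rw [map_sub, aeval_X, aeval_C, Algebra.algebraMap_eq_smul_one]
        rw [hBζ] at h
        by_cases h0 : b⁻¹ • x - ζ • (1 : Matrix (Fin n) (Fin n) F) = 0
        · exact ⟨ζ, Finset.mem_insert_self _ _, sub_eq_zero.1 h0⟩
        · obtain ⟨d, hd, h1⟩ := hinv _ (B.sub_mem (B.smul_mem hxB _) (B.smul_mem B.one_mem _)) h0
          have h2 : aeval (b⁻¹ • x) (∏ ζ ∈ s, (X - C ζ : F[X])) = 0 := by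
            have h3 : d * (b⁻¹ • x - ζ • 1) = 1 := by
              rw [← hcomm _ (B.sub_mem (B.smul_mem hxB _) (B.smul_mem B.one_mem _)) d hd, h1]
            calc _ = d * (b⁻¹ • x - ζ • 1) * aeval (b⁻¹ • x) (∏ ζ ∈ s, (X - C ζ : F[X])) := by rw [h3, one_mul]
              _ = 0 := by rw [mul_assoc, h, mul_zero]
          obtain ⟨ζ', hζ', h4⟩ := ih h2
          exact ⟨ζ', Finset.mem_insert_of_mem hζ', h4⟩
    obtain ⟨ζ, -, h1⟩ := hfac _ hz
    apply hxs
    refine ⟨b * ζ, ?_⟩
    rw [mul_smul, ← h1, smul_smul, mul_inv_cancel₀ hb0, one_smul]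
  · push Not at hb
    have hirr : Irreducible (X ^ r - C c : F[X]) := X_pow_sub_C_irreducible_of_prime hr hb
    have haev : aeval x (X ^ r - C c : F[X]) = 0 := by
      rw [map_sub, map_pow, aeval_X, aeval_C, hxr, Algebra.algebraMap_eq_smul_one, sub_self]
    have hmon : (X ^ r - C c : F[X]).Monic := monic_X_pow_sub_C c hr.ne_zero
    have hmin : (X ^ r - C c : F[X]) = minpoly F x := minpoly.eq_of_irreducible_of_monic hirr haev hmon
    have hdvd : (X ^ r - C c : F[X]) ∣ x.charpoly := by rw [hmin]; exact Matrix.minpoly_dvd_charpoly x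
    have hdeg : (X ^ r - C c : F[X]).natDegree = r := natDegree_X_pow_sub_C
    have hcd : x.charpoly.natDegree = n := by rw [Matrix.charpoly_natDegree_eq_dim, Fintype.card_fin]
    have hrn : r ≤ n := by
      rw [← hdeg, ← hcd]
      exact natDegree_le_of_dvd hdvd (Matrix.charpoly_monic x).ne_zero
    have hnr' : n = r := le_antisymm hnr hrn
    have heq : x.charpoly = X ^ r - C c := by
      refine (eq_of_monic_of_dvd_of_natDegree_le hmon (Matrix.charpoly_monic x) hdvd ?_)
      rw [hcd, hdeg]; exact hnr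
    have hd := Matrix.det_eq_sign_charpoly_coeff x
    rw [heq, hdet, Fintype.card_fin] at hd
    have hodd : Odd n := by
      rw [hnr']
      exact hr.odd_of_ne_two (by omega)
    rw [hodd.neg_one_pow, coeff_sub, coeff_X_pow, if_neg (fun h => hr.ne_zero h.symm), coeff_C_zero, zero_sub,
      neg_mul_neg, one_mul] at hd
    exact hb 1 (by rw [one_pow, hd])

end Cfsg.Agent.H968.TW
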