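import Cfsg.Agent.H968.TW.Inn

/-!
# S3694: the elements with a lift in a field `B` form a cyclic group (helper968)
-/

set_option autoImplicit false

namespace Cfsg.Agent.H968.TW

open Subgroup Cfsg.Agent.H607.TW

universe u

theorem mem_zpowers_of_cyclic {G : Type u} [Group G] [Finite G] {D : Subgroup G} (hD : IsCyclic ↥D) {r : ℕ}
    (hr : r.Prime) {y x : G} (hy : y ∈ D) (hy1 : y ≠ 1) (hyr : ∃ k, y ^ r ^ k = 1) (hx : x ∈ D) (hxr : x ^ r = 1) :
    x ∈ zpowers y := by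
  classical
  let _ : Fintype ↥D := Fintype.ofFinite _
  -- an element `z` of order `r` in `⟨y⟩`
  have hrf : Fact r.Prime := ⟨hr⟩
  obtain ⟨k, hk⟩ := hyr
  obtain ⟨j, -, hj⟩ := (Nat.dvd_prime_pow hr).1 (orderOf_dvd_of_pow_eq_one hk)
  have hj0 : j ≠ 0 := by
    rintro rfl
    rw [pow_zero, orderOf_eq_one_iff] at hj
    exact hy1 hj
  have hdvd : r ∣ orderOf y := by rw [hj]; exact dvd_pow_self r hj0
  have hz : orderOf (y ^ (orderOf y / r)) = r := orderOf_pow_orderOf_div (orderOf_pos y).ne' hdvd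
  obtain ⟨z, hz'⟩ : ∃ z, z = y ^ (orderOf y / r) := ⟨_, rfl⟩
  rw [← hz'] at hz
  have hzD : z ∈ D := by rw [hz']; exact pow_mem hy _
  have hle := IsCyclic.card_pow_eq_one_le (α := ↥D) hr.pos
  -- the powers of `z`
  have hsub : (Finset.univ.filter fun a : ↥D => a ∈ zpowers (⟨z, hzD⟩ : ↥D)) ⊆
      Finset.univ.filter fun a : ↥D => a ^ r = 1 := by
    intro a ha
    rw [Finset.mem_filter] at ha ⊢
    refine ⟨Finset.mem_univ _, ?_⟩
    obtain ⟨m, rfl⟩ := mem_zpowers_iff.1 ha.2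
    have h1 : (⟨z, hzD⟩ : ↥D) ^ r = 1 := by
      apply Subtype.ext
      show z ^ r = 1
      rw [← hz, pow_orderOf_eq_one]
    rw [← zpow_natCast, ← zpow_mul, mul_comm, zpow_mul, zpow_natCast, h1, one_zpow]
  have hcard : (Finset.univ.filter fun a : ↥D => a ∈ zpowers (⟨z, hzD⟩ : ↥D)).card = r := by
    rw [← Fintype.card_subtype, ← Nat.card_eq_fintype_card]
    have h2 : Nat.card (zpowers (⟨z, hzD⟩ : ↥D)) = r := by
      rw [Nat.card_zpowers, Subgroup.orderOf_mk, hz]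
    exact h2
  have heq := Finset.eq_of_subset_of_card_le hsub (by rw [hcard]; exact hle)
  have hxm : (⟨x, hx⟩ : ↥D) ∈ Finset.univ.filter fun a : ↥D => a ^ r = 1 := by
    rw [Finset.mem_filter]
    exact ⟨Finset.mem_univ _, Subtype.ext hxr⟩
  rw [← heq, Finset.mem_filter] at hxm
  obtain ⟨m, hm⟩ := mem_zpowers_iff.1 hxm.2
  have h3 : z ^ m = x := congrArg Subtype.val hm
  rw [← h3, hz']
  exact zpow_mem (pow_mem (mem_zpowers y) _) m

variable {G : Type u} [Group G] {F : Type} [Field F] {n : ℕ} {S : Type} [Group S]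
  {ι : S →* Matrix.GeneralLinearGroup (Fin n) F} {π : S →* G}

theorem inv_mem_of {B : Subalgebra F (Matrix (Fin n) (Fin n) F)} (hn : 0 < n)
    (hinv : ∀ b ∈ B, b ≠ 0 → ∃ c ∈ B, b * c = 1) {u : Matrix.GeneralLinearGroup (Fin n) F}
    (hu : (u : Matrix (Fin n) (Fin n) F) ∈ B) :
    ((u⁻¹ : Matrix.GeneralLinearGroup (Fin n) F) : Matrix (Fin n) (Fin n) F) ∈ B := by
  have hne : Nonempty (Fin n) := ⟨⟨0, hn⟩⟩
  have hnt : Nontrivial (Matrix (Fin n) (Fin n) F) := inferInstance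
  obtain ⟨c, hc, h1⟩ := hinv _ hu u.ne_zero
  have h2 : ((u⁻¹ : Matrix.GeneralLinearGroup (Fin n) F) : Matrix (Fin n) (Fin n) F) = c := by
    calc ((u⁻¹ : Matrix.GeneralLinearGroup (Fin n) F) : Matrix (Fin n) (Fin n) F)
        = ((u⁻¹ : Matrix.GeneralLinearGroup (Fin n) F) : Matrix (Fin n) (Fin n) F) *
          ((u : Matrix (Fin n) (Fin n) F) * c) := by rw [h1, mul_one]
      _ = c := by rw [← mul_assoc, ← Units.val_mul, inv_mul_cancel, Units.val_one, one_mul]
  rw [h2]; exact hc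

theorem isCyclic_of_le {B : Subalgebra F (Matrix (Fin n) (Fin n) F)} (hn : 0 < n) [Finite F]
    (hcomm : ∀ x ∈ B, ∀ y ∈ B, x * y = y * x) (hinv : ∀ b ∈ B, b ≠ 0 → ∃ c ∈ B, b * c = 1)
    (H : Subgroup (Matrix.GeneralLinearGroup (Fin n) F))
    (hH : ∀ u ∈ H, (u : Matrix (Fin n) (Fin n) F) ∈ B) : IsCyclic ↥H := by
  have hne : Nonempty (Fin n) := ⟨⟨0, hn⟩⟩
  let _ : CommRing ↥B := { (inferInstance : Ring ↥B) with
    mul_comm := fun x y => Subtype.ext (hcomm x x.2 y y.2) }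
  have hnt : Nontrivial ↥B := ⟨⟨0, 1, fun h => zero_ne_one (α := Matrix (Fin n) (Fin n) F) (congrArg Subtype.val h)⟩⟩
  have hnz : NoZeroDivisors ↥B := by
    constructor
    intro x y hxy
    by_contra hcon
    push Not at hcon
    obtain ⟨c, hc, h1⟩ := hinv x x.2 (fun h => hcon.1 (Subtype.ext h))
    apply hcon.2
    have h2 : (x : Matrix (Fin n) (Fin n) F) * y = 0 := congrArg Subtype.val hxy
    apply Subtype.ext
    show (y : Matrix (Fin n) (Fin n) F) = 0
    calc (y : Matrix (Fin n) (Fin n) F) = (x * c) * y := by rw [h1, one_mul]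
      _ = c * (x * y) := by rw [hcomm x x.2 c hc, mul_assoc]
      _ = 0 := by rw [h2, mul_zero]
  have hd : IsDomain ↥B := { }
  have hfin : Finite ↥H := inferInstance
  exact isCyclic_of_injective_ringHom (R := ↥B) (G := ↥H)
    { toFun := fun u => ⟨_, hH u u.2⟩
      map_one' := rfl
      map_mul' := fun u v => rfl }
    (fun u v huv => Subtype.ext (Units.ext (congrArg Subtype.val huv)))

/-- the elements with a lift in `B` lie in a cyclic subgroup -/
theorem exists_cyclic {N : Subgroup G} (hr : π.range = N) (hc : centralizer (N : Set G) = ⊥) [Finite S] [Finite F]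
    (hι : Function.Injective ι) {B : Subalgebra F (Matrix (Fin n) (Fin n) F)} (hn : 0 < n)
    (hcomm : ∀ x ∈ B, ∀ y ∈ B, x * y = y * x) (hinv : ∀ b ∈ B, b ≠ 0 → ∃ c ∈ B, b * c = 1) :
    ∃ D : Subgroup G, IsCyclic ↥D ∧ ∀ (y : G) (u : Matrix.GeneralLinearGroup (Fin n) F),
      (u : Matrix (Fin n) (Fin n) F) ∈ B → InnL ι π y u → y ∈ D := by
  let H : Subgroup (Matrix.GeneralLinearGroup (Fin n) F) :=
    { carrier := {u | (u : Matrix (Fin n) (Fin n) F) ∈ B}
      one_mem' := B.one_mem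
      mul_mem' := fun {u v} hu hv => B.mul_mem hu hv
      inv_mem' := fun {u} hu => inv_mem_of hn hinv hu }
  have hH : IsCyclic ↥H := isCyclic_of_le hn hcomm hinv H fun u hu => hu
  let Γ : Subgroup (G × Matrix.GeneralLinearGroup (Fin n) F) :=
    { carrier := {p | p.2 ∈ H ∧ InnL ι π p.1 p.2}
      one_mem' := ⟨H.one_mem, InnL.one⟩
      mul_mem' := fun {p q} hp hq => ⟨H.mul_mem hp.1 hq.1, hp.2.mul hq.2⟩
      inv_mem' := fun {p} hp => ⟨H.inv_mem hp.1, hp.2.inv hι⟩ }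
  let f : ↥Γ →* ↥H :=
    { toFun := fun p => ⟨p.1.2, p.2.1⟩
      map_one' := rfl
      map_mul' := fun p q => rfl }
  have hf : Function.Injective f := by
    intro p q hpq
    have h1 : p.1.2 = q.1.2 := congrArg Subtype.val hpq
    have h2 := p.2.2
    rw [h1] at h2
    exact Subtype.ext (Prod.ext (h2.unique hr hc hι q.2.2) h1)
  have hΓ : IsCyclic ↥Γ := isCyclic_of_injective f hf
  let g : ↥Γ →* G := (MonoidHom.fst G (Matrix.GeneralLinearGroup (Fin n) F)).comp Γ.subtype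
  refine ⟨g.range, isCyclic_of_surjective g.rangeRestrict g.rangeRestrict_surjective, fun y u hu hyu => ?_⟩
  exact ⟨⟨(y, u), hu, hyu⟩, rfl⟩

end Cfsg.Agent.H968.TW
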