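import Cfsg.Agent.H968.TW.AlgField

/-!
# S3694: the field case, one maximal subgroup (helper968)
-/

set_option autoImplicit false

namespace Cfsg.Agent.H968.TW

open Subgroup Cfsg.Agent.H607.TW

universe u

/-- T12a, as a hypothesis -/
def T12a (F : Type) [Field F] (n : ℕ) : Prop :=
  ∀ (B : Subalgebra F (Matrix (Fin n) (Fin n) F)), (∀ x ∈ B, ∀ y ∈ B, x * y = y * x) →
    (∀ x ∈ B, x ≠ 0 → ∃ y ∈ B, x * y = 1) →
    ∃ (L : Type) (_ : Field L) (w : ℕ) (φ : Matrix (Fin w) (Fin w) L →ₙ+* Matrix (Fin n) (Fin n) F),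
      Nat.card L = Nat.card ↥B ∧ w * Module.finrank F ↥B = n ∧ Function.Injective φ ∧ φ 1 = 1 ∧
      (∀ x, (∃ m, φ m = x) ↔ ∀ y ∈ B, x * y = y * x) ∧ (∀ c : L, φ (Matrix.scalar (Fin w) c) ∈ B)

variable {G : Type u} [Group G] [Finite G] {N A X : Subgroup G} {r : ℕ} {F : Type} [Field F] [Finite F] {n : ℕ} {S : Type}
  [Group S] {ι : S →* Matrix.GeneralLinearGroup (Fin n) F} {π : S →* G}

omit [Finite G] [Finite F] in
theorem mt_pow (s : S) (k : ℕ) : mt ι (s ^ k) = mt ι s ^ k := by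
  induction k with
  | zero => rw [pow_zero, pow_zero, mt_one]
  | succ k ih => rw [pow_succ, mt_mul, ih, pow_succ]

omit [Finite G] [Finite F] in
/-- elements of `S` with the same image differ by a scalar -/
theorem mt_eq_smul (hM : Model N ι π) {s t : S} (h : π s = π t) : ∃ c : F, mt ι s = c • mt ι t := by
  obtain ⟨c, hc⟩ := (hM.ker (s * t⁻¹)).1 (by rw [map_mul, map_inv, h, mul_inv_cancel])
  refine ⟨c, ?_⟩
  have h1 : s = s * t⁻¹ * t := by group
  rw [h1, mt_mul, hc, smul_mul_assoc, one_mul]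

omit [Finite G] [Finite F] in
theorem adjoin_comm {T : Set (Matrix (Fin n) (Fin n) F)} (hT : ∀ x ∈ T, ∀ y ∈ T, x * y = y * x) :
    ∀ x ∈ Algebra.adjoin F T, ∀ y ∈ Algebra.adjoin F T, x * y = y * x := by
  have h1 : Algebra.adjoin F T ≤ Subalgebra.centralizer F T := Algebra.adjoin_le fun t ht =>
    (Subalgebra.mem_centralizer_iff F).2 fun s hs => hT s hs t ht
  have h2 : Algebra.adjoin F T ≤ Subalgebra.centralizer F (Algebra.adjoin F T : Set (Matrix (Fin n) (Fin n) F)) :=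
    Algebra.adjoin_le fun t ht => (Subalgebra.mem_centralizer_iff F).2 fun y hy =>
      ((Subalgebra.mem_centralizer_iff F).1 (h1 hy) t ht).symm
  intro x hx y hy
  exact (Subalgebra.mem_centralizer_iff F).1 (h2 hy) x hx

theorem field_local (hT : T12a F n) (h : Loc N A r) (hn : 3 ≤ n) (hM : Model N ι π) (hC : CompAx ι π A)
    (hX : MinX N A X r) (hab : ∀ s t : S, π s ∈ X → π t ∈ X → s * t = t * s)
    (hinv : ∀ b ∈ Algebra.adjoin F (mt ι '' {s | π s ∈ X}), b ≠ 0 →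
      ∃ c ∈ Algebra.adjoin F (mt ι '' {s | π s ∈ X}), b * c = 1) :
    r ≠ 2 ∧ ∀ y ∈ OO r A, y ≠ 1 → ∀ u, InnL ι π y u → X ≤ zpowers y := by
  have hSfin : Finite S := Finite.of_injective ι hM.inj
  obtain ⟨B, hB⟩ : ∃ B, B = Algebra.adjoin F (mt ι '' {s | π s ∈ X}) := ⟨_, rfl⟩
  have hcomm : ∀ x ∈ B, ∀ y ∈ B, x * y = y * x := by
    rw [hB]
    apply adjoin_comm
    rintro _ ⟨s, hs, rfl⟩ _ ⟨t, ht, rfl⟩
    rw [← mt_mul, ← mt_mul, hab s t hs ht]
  rw [← hB] at hinv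
  have hgen : ∀ s : S, π s ∈ X → mt ι s ∈ B := fun s hs => by rw [hB]; exact Algebra.subset_adjoin ⟨s, hs, rfl⟩
  -- `x₀`
  obtain ⟨⟨x₀, hx₀⟩, hx₀1'⟩ := Subgroup.ne_bot_iff_exists_ne_one.1 hX.ne
  have hx₀1 : x₀ ≠ 1 := fun h => hx₀1' (Subtype.ext h)
  obtain ⟨s₀, hs₀⟩ : ∃ s, π s = x₀ := by
    have h1 := (hX.le hx₀).2
    rw [← hM.range] at h1
    exact h1
  have hns : ¬ ∃ c : F, mt ι s₀ = c • 1 := by
    intro h1
    apply hx₀1
    rw [← hs₀]
    exact (hM.ker s₀).2 h1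
  have hs₀X : π s₀ ∈ X := by rw [hs₀]; exact hx₀
  -- the centralizer
  have hXn : ∀ a ∈ A, ∀ x ∈ X, a * x * a⁻¹ ∈ X := fun a ha x hx => conj_mem_of_norm hX.norm ha hx
  have hInvB : Inv ι π A B := by rw [hB]; exact inv_adjoin hXn
  have hInvE := inv_centralizer hInvB
  have hEtop : Subalgebra.centralizer F (B : Set (Matrix (Fin n) (Fin n) F)) ≠ ⊤ := by
    intro h1
    apply hns
    apply scalar_of_comm
    intro y
    have h2 : y ∈ Subalgebra.centralizer F (B : Set (Matrix (Fin n) (Fin n) F)) := by rw [h1]; exact Algebra.mem_top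
    exact (Subalgebra.mem_centralizer_iff F).1 h2 _ (hgen _ hs₀X)
  obtain ⟨L, _, w, φ, hcard, hdim, hφ, hφ1, hrange, hsc⟩ := hT B hcomm hinv
  have hmemE : ∀ x, x ∈ Subalgebra.centralizer F (B : Set (Matrix (Fin n) (Fin n) F)) ↔ ∀ y ∈ B, x * y = y * x := by
    intro x
    rw [Subalgebra.mem_centralizer_iff]
    exact ⟨fun h1 y hy => (h1 y hy).symm, fun h1 y hy => (h1 y hy).symm⟩
  have hw := hC _ hInvE hEtop L w φ hφ (fun x => by
    rw [hrange, hmemE, hφ1, one_mul]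
    exact ⟨fun h1 => ⟨h1, rfl⟩, fun h1 => h1.1⟩) (fun x _ => by rw [hφ1, one_mul, mul_one])
  have hBfin : Finite ↥B := by
    have hfin : Finite (Matrix (Fin n) (Fin n) F) := inferInstanceAs (Finite (Fin n → Fin n → F))
    exact Subtype.finite
  have hne : Nonempty (Fin n) := ⟨⟨0, by omega⟩⟩
  have hLF : Nat.card L ≠ Nat.card F := by
    intro h1
    rw [hcard] at h1
    have hinj : Function.Injective (fun c : F => (⟨c • 1, B.smul_mem B.one_mem c⟩ : ↥B)) := by
      intro c c' hcc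
      have h2 : c • (1 : Matrix (Fin n) (Fin n) F) = c' • 1 := congrArg Subtype.val hcc
      have h3 := congrFun (congrFun h2 (Classical.arbitrary _)) (Classical.arbitrary _)
      simpa using h3
    have hbij := hinj.bijective_of_nat_card_le h1.le
    obtain ⟨c, hc⟩ := hbij.2 ⟨_, hgen _ hs₀X⟩
    exact hns ⟨c, (congrArg Subtype.val hc).symm⟩
  have hw1 : w ≤ 1 := by
    rcases hw with h1 | ⟨-, h1, -⟩ | ⟨-, h1, -⟩
    · exact h1
    · exact absurd h1 hLF
    · exact absurd h1 hLF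
  have hw1' : w = 1 := by
    rcases Nat.lt_or_ge 0 w with h1 | h1
    · omega
    · exfalso
      have h2 : w = 0 := by omega
      rw [h2, zero_mul] at hdim
      omega
  subst hw1'
  rw [one_mul] at hdim
  -- `C(B) = B`
  have hCB : ∀ x : Matrix (Fin n) (Fin n) F, (∀ y ∈ B, x * y = y * x) → x ∈ B := by
    intro x hx
    obtain ⟨m, rfl⟩ := (hrange x).2 hx
    have h1 : m = Matrix.scalar (Fin 1) (m 0 0) := by
      ext i j
      rw [Subsingleton.elim i 0, Subsingleton.elim j 0, Matrix.scalar_apply, Matrix.diagonal_apply_eq]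
    rw [h1]
    exact hsc _
  obtain ⟨D, hD, hDm⟩ := exists_cyclic hM.range h.cent hM.inj (by omega : 0 < n) hcomm hinv
  have hXD : ∀ x ∈ X, x ∈ D := by
    intro x hx
    obtain ⟨s, rfl⟩ : ∃ s, π s = x := by
      have h1 := (hX.le hx).2
      rw [← hM.range] at h1
      exact h1
    exact hDm _ _ (hgen s hx) (InnL.pi s)
  have hXp : ∀ y ∈ OO r A, y ≠ 1 → y ∈ D → X ≤ zpowers y := by
    intro y hy hy1 hyD x hx
    refine mem_zpowers_of_cyclic hD h.prime hyD hy1 ?_ (hXD x hx) (hX.exp x hx)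
    obtain ⟨k, hk⟩ := isPGroup_OO r A ⟨y, hy⟩
    exact ⟨k, congrArg Subtype.val hk⟩
  -- `B = F[x̂₀]`
  have hB0 : B ≤ Algebra.adjoin F {mt ι s₀} := by
    conv_lhs => rw [hB]
    apply Algebra.adjoin_le
    rintro _ ⟨s, hs, rfl⟩
    have h1 := hXp x₀ (hX.le hx₀).1 hx₀1 (hXD x₀ hx₀) hs
    rw [← mem_powers_iff_mem_zpowers] at h1
    obtain ⟨k, hk⟩ := h1
    have hk' : x₀ ^ k = π s := hk
    rw [← hs₀, ← map_pow] at hk'
    obtain ⟨c, hc⟩ := mt_eq_smul hM hk'.symm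
    rw [SetLike.mem_coe, hc, mt_pow]
    exact Subalgebra.smul_mem _ (Subalgebra.pow_mem _ (Algebra.self_mem_adjoin_singleton F _) k) c
  obtain ⟨c, hc⟩ := (hM.ker (s₀ ^ r)).1 (by rw [map_pow, hs₀, hX.exp _ hx₀])
  rw [mt_pow] at hc
  have hnr : n ≤ r := by
    have h1 := finrank_adjoin_le h.prime.pos hc
    have h2 : B = Algebra.adjoin F {mt ι s₀} := le_antisymm hB0 (Algebra.adjoin_le (by
      rw [Set.singleton_subset_iff]; exact hgen _ hs₀X))
    rw [← h2, hdim] at h1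
    exact h1
  refine ⟨by omega, fun y hy hy1 u hyu => hXp y hy hy1 (hDm y u ?_ hyu)⟩
  -- `u ∈ B`
  obtain ⟨s', h1, h2⟩ := hyu s₀
  have h3 : π s' = π s₀ := by
    rw [h2, hs₀, ← hX.comm x₀ hx₀ y hy, mul_inv_cancel_right]
  obtain ⟨l, hl⟩ := mt_eq_smul hM h3
  have h4 : (u : Matrix (Fin n) (Fin n) F) * mt ι s₀ *
      ((u⁻¹ : Matrix.GeneralLinearGroup (Fin n) F) : Matrix (Fin n) (Fin n) F) = l • mt ι s₀ := by
    rw [← hl]
    unfold H607.TW.mt
    rw [h1, Units.val_mul, Units.val_mul]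
  have h5 : ((u⁻¹ : Matrix.GeneralLinearGroup (Fin n) F) : Matrix (Fin n) (Fin n) F) *
      (u : Matrix (Fin n) (Fin n) F) = 1 := by
    rw [← Units.val_mul, inv_mul_cancel, Units.val_one]
  have h6 : (u : Matrix (Fin n) (Fin n) F) *
      ((u⁻¹ : Matrix.GeneralLinearGroup (Fin n) F) : Matrix (Fin n) (Fin n) F) = 1 := by
    rw [← Units.val_mul, mul_inv_cancel, Units.val_one]
  have hc0 : c ≠ 0 := by
    rintro rfl
    rw [zero_smul] at hc
    have h7 := congrArg Matrix.det hc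
    rw [Matrix.det_pow, hM.det, one_pow, Matrix.det_zero] at h7
    exact one_ne_zero h7
  have hlr : l ^ r = 1 := by
    have h7 : ∀ k : ℕ, ((u : Matrix (Fin n) (Fin n) F) * mt ι s₀ *
        ((u⁻¹ : Matrix.GeneralLinearGroup (Fin n) F) : Matrix (Fin n) (Fin n) F)) ^ k =
        (u : Matrix (Fin n) (Fin n) F) * mt ι s₀ ^ k *
        ((u⁻¹ : Matrix.GeneralLinearGroup (Fin n) F) : Matrix (Fin n) (Fin n) F) := by
      intro k
      induction k with
      | zero => rw [pow_zero, pow_zero, mul_one, h6]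
      | succ k ih =>
        rw [pow_succ, ih, pow_succ]
        calc _ = (u : Matrix (Fin n) (Fin n) F) * mt ι s₀ ^ k *
              (((u⁻¹ : Matrix.GeneralLinearGroup (Fin n) F) : Matrix (Fin n) (Fin n) F) *
              (u : Matrix (Fin n) (Fin n) F)) * mt ι s₀ *
              ((u⁻¹ : Matrix.GeneralLinearGroup (Fin n) F) : Matrix (Fin n) (Fin n) F) := by simp only [mul_assoc]
          _ = _ := by rw [h5, mul_one]; simp only [mul_assoc]
    have h8 := h7 r
    rw [h4, hc, smul_pow, hc, mul_smul_comm, mul_one, smul_mul_assoc, h6, smul_smul] at h8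
    have h9 := congrFun (congrFun h8 (Classical.arbitrary _)) (Classical.arbitrary _)
    rw [Matrix.smul_apply, Matrix.smul_apply, Matrix.one_apply_eq, smul_eq_mul, smul_eq_mul, mul_one, mul_one] at h9
    exact mul_right_cancel₀ hc0 (h9.trans (one_mul c).symm)
  have hl1 : l = 1 := eq_one_of_smul hn hcomm hinv (hgen _ hs₀X) hns h.prime hnr hc (hM.det s₀) hlr
  have h10 : (u : Matrix (Fin n) (Fin n) F) * mt ι s₀ = mt ι s₀ * (u : Matrix (Fin n) (Fin n) F) := by
    rw [hl1, one_smul] at h4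
    calc _ = (u : Matrix (Fin n) (Fin n) F) * mt ι s₀ *
          (((u⁻¹ : Matrix.GeneralLinearGroup (Fin n) F) : Matrix (Fin n) (Fin n) F) *
          (u : Matrix (Fin n) (Fin n) F)) := by rw [h5, mul_one]
      _ = (u : Matrix (Fin n) (Fin n) F) * mt ι s₀ *
          ((u⁻¹ : Matrix.GeneralLinearGroup (Fin n) F) : Matrix (Fin n) (Fin n) F) *
          (u : Matrix (Fin n) (Fin n) F) := by simp only [mul_assoc]
      _ = _ := by rw [h4]
  apply hCB
  have h11 : Algebra.adjoin F {mt ι s₀} ≤ Subalgebra.centralizer F {(u : Matrix (Fin n) (Fin n) F)} := by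
    apply Algebra.adjoin_le
    rw [Set.singleton_subset_iff, SetLike.mem_coe, Subalgebra.mem_centralizer_iff]
    intro z hz
    rw [Set.mem_singleton_iff] at hz
    rw [hz, h10]
  intro z hz
  exact (Subalgebra.mem_centralizer_iff F).1 (h11 (hB0 hz)) _ rfl

end Cfsg.Agent.H968.TW
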