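import Cfsg.Agent.H607.TW.Defs2

/-!
# S3694: inner lifts (helper968)

`InnL ι π y u` : conjugation by `y` is lifted to conjugation by `u`.
-/

set_option autoImplicit false

namespace Cfsg.Agent.H968.TW

open Subgroup Cfsg.Agent.H607.TW

universe u

variable {G : Type u} [Group G] {F : Type} [Field F] {n : ℕ} {S : Type} [Group S]
  {ι : S →* Matrix.GeneralLinearGroup (Fin n) F} {π : S →* G}

/-- conjugation by `y` is lifted to conjugation by `u` -/
def InnL (ι : S →* Matrix.GeneralLinearGroup (Fin n) F) (π : S →* G) (y : G)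
    (u : Matrix.GeneralLinearGroup (Fin n) F) : Prop :=
  ∀ s : S, ∃ s' : S, ι s' = u * ι s * u⁻¹ ∧ π s' = y * π s * y⁻¹

theorem mt_mul (s t : S) : mt ι (s * t) = mt ι s * mt ι t := by
  unfold H607.TW.mt
  rw [map_mul, Units.val_mul]

theorem mt_one : mt ι (1 : S) = 1 := by
  unfold H607.TW.mt
  rw [map_one, Units.val_one]

theorem tauP_one (B : Matrix.GeneralLinearGroup (Fin n) F) (x : Matrix (Fin n) (Fin n) F) :
    tauP B 1 x = (B : Matrix (Fin n) (Fin n) F) * x *
      ((B⁻¹ : Matrix.GeneralLinearGroup (Fin n) F) : Matrix (Fin n) (Fin n) F) := by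
  have h : x.map (1 : F ≃+* F) = x := by
    ext i j
    rfl
  rw [tauP_apply, h]

theorem tauP_mul (B : Matrix.GeneralLinearGroup (Fin n) F) (σ : F ≃+* F) (x y : Matrix (Fin n) (Fin n) F) :
    tauP B σ (x * y) = tauP B σ x * tauP B σ y := by
  have h1 : ((B⁻¹ : Matrix.GeneralLinearGroup (Fin n) F) : Matrix (Fin n) (Fin n) F) *
      (B : Matrix (Fin n) (Fin n) F) = 1 := by
    rw [← Units.val_mul, inv_mul_cancel, Units.val_one]
  have h2 : (x * y).map σ = x.map σ * y.map σ := Matrix.map_mul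
  rw [tauP_apply, tauP_apply, tauP_apply, h2]
  calc _ = (B : Matrix (Fin n) (Fin n) F) * x.map σ * 1 * y.map σ *
        ((B⁻¹ : Matrix.GeneralLinearGroup (Fin n) F) : Matrix (Fin n) (Fin n) F) := by simp only [mul_assoc, one_mul]
    _ = _ := by rw [← h1]; simp only [mul_assoc]

theorem tauM_mul (B : Matrix.GeneralLinearGroup (Fin n) F) (σ : F ≃+* F) (x y : Matrix (Fin n) (Fin n) F) :
    tauM B σ (x * y) = tauM B σ y * tauM B σ x := by
  have h1 : ∀ z, tauM B σ z = tauP B σ z.transpose := fun z => rfl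
  rw [h1, h1, h1, Matrix.transpose_mul, tauP_mul]

theorem exists_not_comm (hn : 2 ≤ n) : ∃ x y : Matrix (Fin n) (Fin n) F, x * y ≠ y * x := by
  obtain ⟨i, hi⟩ : ∃ i : Fin n, (i : ℕ) = 0 := ⟨⟨0, by omega⟩, rfl⟩
  obtain ⟨j, hj⟩ : ∃ j : Fin n, (j : ℕ) = 1 := ⟨⟨1, by omega⟩, rfl⟩
  have hij : i ≠ j := by
    intro h
    rw [h, hj] at hi
    omega
  refine ⟨Matrix.single i j 1, Matrix.single j i 1, ?_⟩
  rw [Matrix.single_mul_single_same, Matrix.single_mul_single_same]
  intro h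
  have h1 := congrFun (congrFun h i) i
  rw [Matrix.single_apply_same, Matrix.single_apply_of_ne] at h1
  · simp at h1
  · intro h2
    exact hij h2.1.symm

theorem innL_of_ind (hn : 2 ≤ n) {y : G} {u : Matrix.GeneralLinearGroup (Fin n) F} (h : Ind ι π y (tauP u 1)) :
    InnL ι π y u := by
  rcases h with ⟨-, h⟩ | ⟨h1, -⟩
  · intro s
    obtain ⟨s', h2, h3⟩ := h s
    refine ⟨s', ?_, h3⟩
    apply Units.ext
    rw [tauP_one] at h2
    rw [Units.val_mul, Units.val_mul]
    exact h2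
  · exfalso
    obtain ⟨x, y, hxy⟩ := exists_not_comm (F := F) hn
    apply hxy
    apply (tauP u 1).injective
    rw [h1, tauP_mul]

theorem ind_of_innL {y : G} {u : Matrix.GeneralLinearGroup (Fin n) F} (h : InnL ι π y u) : Ind ι π y (tauP u 1) := by
  refine Or.inl ⟨tauP_mul u 1, fun s => ?_⟩
  obtain ⟨s', h2, h3⟩ := h s
  refine ⟨s', ?_, h3⟩
  rw [tauP_one]
  unfold H607.TW.mt
  rw [h2, Units.val_mul, Units.val_mul]

theorem InnL.pi (s : S) : InnL ι π (π s) (ι s) := by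
  intro t
  exact ⟨s * t * s⁻¹, by rw [map_mul, map_mul, map_inv], by rw [map_mul, map_mul, map_inv]⟩

theorem InnL.one : InnL ι π 1 1 := by
  intro t
  exact ⟨t, by group, by group⟩

theorem InnL.mul {y z : G} {u v : Matrix.GeneralLinearGroup (Fin n) F} (h : InnL ι π y u) (h' : InnL ι π z v) :
    InnL ι π (y * z) (u * v) := by
  intro s
  obtain ⟨s', h1, h2⟩ := h' s
  obtain ⟨s'', h3, h4⟩ := h s'
  exact ⟨s'', by rw [h3, h1]; group, by rw [h4, h2]; group⟩

theorem InnL.surj [Finite S] (hι : Function.Injective ι) {y : G} {u : Matrix.GeneralLinearGroup (Fin n) F}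
    (h : InnL ι π y u) (t : S) : ∃ s : S, ι t = u * ι s * u⁻¹ ∧ π t = y * π s * y⁻¹ := by
  choose f hf1 hf2 using h
  have hinj : Function.Injective f := by
    intro a b hab
    apply hι
    have h1 := hf1 a
    rw [hab, hf1 b] at h1
    exact (mul_left_cancel (mul_right_cancel h1)).symm
  obtain ⟨s, rfl⟩ := (Finite.injective_iff_surjective.1 hinj) t
  exact ⟨s, hf1 s, hf2 s⟩

theorem InnL.inv [Finite S] (hι : Function.Injective ι) {y : G} {u : Matrix.GeneralLinearGroup (Fin n) F}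
    (h : InnL ι π y u) : InnL ι π y⁻¹ u⁻¹ := by
  intro t
  obtain ⟨s, h1, h2⟩ := h.surj hι t
  exact ⟨s, by rw [h1]; group, by rw [h2]; group⟩

/-- two elements with the same inner lift are equal -/
theorem InnL.unique {N : Subgroup G} (hr : π.range = N) (hc : centralizer (N : Set G) = ⊥)
    (hι : Function.Injective ι) {y z : G} {u : Matrix.GeneralLinearGroup (Fin n) F}
    (h : InnL ι π y u) (h' : InnL ι π z u) : y = z := by
  have h1 : z⁻¹ * y ∈ centralizer (N : Set G) := by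
    rw [mem_centralizer_iff]
    intro x hx
    rw [← hr] at hx
    obtain ⟨s, rfl⟩ := hx
    obtain ⟨s1, h3, h4⟩ := h s
    obtain ⟨s2, h5, h6⟩ := h' s
    have h7 : s1 = s2 := hι (by rw [h3, h5])
    rw [h7, h6] at h4
    calc π s * (z⁻¹ * y) = z⁻¹ * (z * π s * z⁻¹) * y := by group
      _ = z⁻¹ * (y * π s * y⁻¹) * y := by rw [h4]
      _ = z⁻¹ * y * π s := by group
  rw [hc, mem_bot, inv_mul_eq_one] at h1
  exact h1.symm

/-! ### general lifts -/

theorem mt_injective (hι : Function.Injective ι) : Function.Injective (mt ι) := by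
  intro s t h
  exact hι (Units.ext h)

/-- a general lift is bijective on `S` -/
theorem ind_surj [Finite S] (hι : Function.Injective ι) {y : G} {τ : Matrix (Fin n) (Fin n) F ≃+ Matrix (Fin n) (Fin n) F}
    (h : Ind ι π y τ) : ((∀ x y, τ (x * y) = τ x * τ y) ∧ ∀ t : S, ∃ s : S, mt ι t = τ (mt ι s) ∧ π t = y * π s * y⁻¹) ∨
    ((∀ x y, τ (x * y) = τ y * τ x) ∧ ∀ t : S, ∃ s : S, mt ι t = τ (mt ι s) ∧ (π t)⁻¹ = y * π s * y⁻¹) := by
  have key : ∀ f : S → S, (∀ s, mt ι (f s) = τ (mt ι s)) → Function.Surjective f := by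
    intro f hf
    apply Finite.injective_iff_surjective.1
    intro a b hab
    apply mt_injective hι
    apply τ.injective
    rw [← hf, ← hf, hab]
  rcases h with ⟨h1, h2⟩ | ⟨h1, h2⟩
  · left
    refine ⟨h1, fun t => ?_⟩
    choose f hf1 hf2 using h2
    obtain ⟨s, rfl⟩ := key f hf1 t
    exact ⟨s, hf1 s, hf2 s⟩
  · right
    refine ⟨h1, fun t => ?_⟩
    choose f hf1 hf2 using h2
    obtain ⟨s, rfl⟩ := key f hf1 t
    exact ⟨s, hf1 s, hf2 s⟩

theorem tau_one {τ : Matrix (Fin n) (Fin n) F ≃+ Matrix (Fin n) (Fin n) F}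
    (h : (∀ x y, τ (x * y) = τ x * τ y) ∨ ∀ x y, τ (x * y) = τ y * τ x) : τ 1 = 1 := by
  obtain ⟨e, he⟩ := τ.surjective 1
  rcases h with h | h
  · calc τ 1 = τ 1 * τ e := by rw [he, mul_one]
      _ = τ (1 * e) := (h 1 e).symm
      _ = 1 := by rw [one_mul, he]
  · calc τ 1 = τ 1 * τ e := by rw [he, mul_one]
      _ = τ (e * 1) := (h e 1).symm
      _ = 1 := by rw [mul_one, he]

/-- the image of a unit -/
noncomputable def tauU (τ : Matrix (Fin n) (Fin n) F ≃+ Matrix (Fin n) (Fin n) F)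
    (h : (∀ x y, τ (x * y) = τ x * τ y) ∨ ∀ x y, τ (x * y) = τ y * τ x) (u : Matrix.GeneralLinearGroup (Fin n) F) :
    Matrix.GeneralLinearGroup (Fin n) F where
  val := τ (u : Matrix (Fin n) (Fin n) F)
  inv := τ ((u⁻¹ : Matrix.GeneralLinearGroup (Fin n) F) : Matrix (Fin n) (Fin n) F)
  val_inv := by
    rcases h with h | h
    · rw [← h, ← Units.val_mul, mul_inv_cancel, Units.val_one, tau_one (Or.inl h)]
    · rw [← h, ← Units.val_mul, inv_mul_cancel, Units.val_one, tau_one (Or.inr h)]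
  inv_val := by
    rcases h with h | h
    · rw [← h, ← Units.val_mul, inv_mul_cancel, Units.val_one, tau_one (Or.inl h)]
    · rw [← h, ← Units.val_mul, mul_inv_cancel, Units.val_one, tau_one (Or.inr h)]

theorem coe_tauU {τ : Matrix (Fin n) (Fin n) F ≃+ Matrix (Fin n) (Fin n) F}
    (h : (∀ x y, τ (x * y) = τ x * τ y) ∨ ∀ x y, τ (x * y) = τ y * τ x) (u : Matrix.GeneralLinearGroup (Fin n) F) :
    (tauU τ h u : Matrix (Fin n) (Fin n) F) = τ (u : Matrix (Fin n) (Fin n) F) := rfl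

theorem coe_tauU_inv {τ : Matrix (Fin n) (Fin n) F ≃+ Matrix (Fin n) (Fin n) F}
    (h : (∀ x y, τ (x * y) = τ x * τ y) ∨ ∀ x y, τ (x * y) = τ y * τ x) (u : Matrix.GeneralLinearGroup (Fin n) F) :
    (((tauU τ h u)⁻¹ : Matrix.GeneralLinearGroup (Fin n) F) : Matrix (Fin n) (Fin n) F) =
      τ ((u⁻¹ : Matrix.GeneralLinearGroup (Fin n) F) : Matrix (Fin n) (Fin n) F) := rfl

/-- conjugates of elements with inner lifts have inner lifts -/
theorem InnL.conj [Finite S] (hι : Function.Injective ι) {y h : G} {u : Matrix.GeneralLinearGroup (Fin n) F}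
    (hy : InnL ι π y u) {τ : Matrix (Fin n) (Fin n) F ≃+ Matrix (Fin n) (Fin n) F} (hτ : Ind ι π h τ) :
    ∃ v, InnL ι π (h * y * h⁻¹) v := by
  rcases ind_surj hι hτ with ⟨hm, hs⟩ | ⟨hm, hs⟩
  · have hτ' : ∀ s : S, ∃ s' : S, mt ι s' = τ (mt ι s) ∧ π s' = h * π s * h⁻¹ := by
      rcases hτ with ⟨-, h2⟩ | ⟨h1, h2⟩
      · exact h2
      · -- `τ` both multiplicative and antimultiplicative
        intro s
        obtain ⟨f, hf⟩ : ∃ f : S → S, ∀ t, mt ι t = τ (mt ι (f t)) ∧ π t = h * π (f t) * h⁻¹ :=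
          ⟨fun t => (hs t).choose, fun t => (hs t).choose_spec⟩
        have hfi : Function.Injective f := by
          intro a b hab
          apply mt_injective hι
          rw [(hf a).1, (hf b).1, hab]
        obtain ⟨t, rfl⟩ := (Finite.injective_iff_surjective.1 hfi) s
        exact ⟨t, hf t⟩
    refine ⟨tauU τ (Or.inl hm) u, fun s => ?_⟩
    obtain ⟨s1, h1, h2⟩ := hs s
    obtain ⟨s2, h3, h4⟩ := hy s1
    obtain ⟨s3, h5, h6⟩ := hτ' s2
    refine ⟨s3, ?_, ?_⟩
    · apply Units.ext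
      rw [Units.val_mul, Units.val_mul, coe_tauU, coe_tauU_inv]
      change mt ι s3 = _ * mt ι s * _
      have h7 : mt ι s2 = (u : Matrix (Fin n) (Fin n) F) * mt ι s1 *
          ((u⁻¹ : Matrix.GeneralLinearGroup (Fin n) F) : Matrix (Fin n) (Fin n) F) := by
        unfold H607.TW.mt
        rw [h3, Units.val_mul, Units.val_mul]
      rw [h5, h1, ← hm, ← hm, h7]
    · rw [h6, h4, h2]; group
  · have hτ' : ∀ s : S, ∃ s' : S, mt ι s' = τ (mt ι s) ∧ (π s')⁻¹ = h * π s * h⁻¹ := by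
      intro s
      obtain ⟨f, hf⟩ : ∃ f : S → S, ∀ t, mt ι t = τ (mt ι (f t)) ∧ (π t)⁻¹ = h * π (f t) * h⁻¹ :=
        ⟨fun t => (hs t).choose, fun t => (hs t).choose_spec⟩
      have hfi : Function.Injective f := by
        intro a b hab
        apply mt_injective hι
        rw [(hf a).1, (hf b).1, hab]
      obtain ⟨t, rfl⟩ := (Finite.injective_iff_surjective.1 hfi) s
      exact ⟨t, hf t⟩
    refine ⟨(tauU τ (Or.inr hm) u)⁻¹, fun s => ?_⟩
    obtain ⟨s1, h1, h2⟩ := hs s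
    obtain ⟨s2, h3, h4⟩ := hy s1
    obtain ⟨s3, h5, h6⟩ := hτ' s2
    refine ⟨s3, ?_, ?_⟩
    · apply Units.ext
      rw [Units.val_mul, Units.val_mul, inv_inv, coe_tauU, coe_tauU_inv]
      change mt ι s3 = _ * mt ι s * _
      have h7 : mt ι s2 = (u : Matrix (Fin n) (Fin n) F) * mt ι s1 *
          ((u⁻¹ : Matrix.GeneralLinearGroup (Fin n) F) : Matrix (Fin n) (Fin n) F) := by
        unfold H607.TW.mt
        rw [h3, Units.val_mul, Units.val_mul]
      rw [h5, h1, ← hm, ← hm, h7, mul_assoc]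
    · rw [← inv_inj, h6, h4]
      have h8 : π s1 = h⁻¹ * (π s)⁻¹ * h := by rw [h2]; group
      rw [h8]; group

end Cfsg.Agent.H968.TW
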