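import Cfsg.Agent.H968.TW.Cyc

/-!
# S3694: invariance of `F[X̂]` and of its centralizer (helper968)
-/

set_option autoImplicit false

namespace Cfsg.Agent.H968.TW

open Subgroup Cfsg.Agent.H607.TW

universe u

variable {G : Type u} [Group G] {F : Type} [Field F] {n : ℕ} {S : Type} [Group S]
  {ι : S →* Matrix.GeneralLinearGroup (Fin n) F} {π : S →* G}

/-- multiplicative or antimultiplicative -/
abbrev MA (τ : Matrix (Fin n) (Fin n) F ≃+ Matrix (Fin n) (Fin n) F) : Prop :=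
  (∀ x y, τ (x * y) = τ x * τ y) ∨ ∀ x y, τ (x * y) = τ y * τ x

theorem ma_of_ind {g : G} {τ : Matrix (Fin n) (Fin n) F ≃+ Matrix (Fin n) (Fin n) F} (h : Ind ι π g τ) : MA τ := by
  rcases h with ⟨h, -⟩ | ⟨h, -⟩
  · exact Or.inl h
  · exact Or.inr h

theorem scalar_of_comm {x : Matrix (Fin n) (Fin n) F} (h : ∀ y, x * y = y * x) : ∃ c : F, x = c • 1 := by
  have h1 : x ∈ Set.range (Matrix.scalar (Fin n)) := Matrix.mem_range_scalar_iff_commute_single'.2 fun i j => (h _).symm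
  obtain ⟨c, rfl⟩ := h1
  exact ⟨c, by rw [Matrix.scalar_apply, Matrix.smul_one_eq_diagonal]⟩

theorem tau_scalar {τ : Matrix (Fin n) (Fin n) F ≃+ Matrix (Fin n) (Fin n) F} (h : MA τ) (c : F) :
    ∃ c' : F, τ (c • 1) = c' • 1 := by
  apply scalar_of_comm
  intro y
  obtain ⟨z, rfl⟩ := τ.surjective y
  rcases h with h | h
  · rw [← h, ← h, smul_mul_assoc, one_mul, mul_smul_comm, mul_one]
  · rw [← h, ← h, smul_mul_assoc, one_mul, mul_smul_comm, mul_one]

theorem tau_smul {τ : Matrix (Fin n) (Fin n) F ≃+ Matrix (Fin n) (Fin n) F} (h : MA τ) (c : F) :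
    ∃ c' : F, ∀ x, τ (c • x) = c' • τ x := by
  obtain ⟨c', hc⟩ := tau_scalar h c
  refine ⟨c', fun x => ?_⟩
  have h1 : c • x = (c • 1) * x := by rw [smul_mul_assoc, one_mul]
  have h2 : (c • (1 : Matrix (Fin n) (Fin n) F)) * x = x * (c • 1) := by
    rw [smul_mul_assoc, one_mul, mul_smul_comm, mul_one]
  rcases h with h | h
  · rw [h1, h, hc, smul_mul_assoc, one_mul]
  · rw [h1, h2, h, hc, smul_mul_assoc, one_mul]

theorem tau_adjoin {τ : Matrix (Fin n) (Fin n) F ≃+ Matrix (Fin n) (Fin n) F} (h : MA τ)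
    {T : Set (Matrix (Fin n) (Fin n) F)} {E : Subalgebra F (Matrix (Fin n) (Fin n) F)} (hT : ∀ x ∈ T, τ x ∈ E)
    {x : Matrix (Fin n) (Fin n) F} (hx : x ∈ Algebra.adjoin F T) : τ x ∈ E := by
  induction hx using Algebra.adjoin_induction with
  | mem x hx => exact hT x hx
  | algebraMap c =>
    obtain ⟨c', hc⟩ := tau_scalar h c
    rw [Algebra.algebraMap_eq_smul_one, hc]
    exact E.smul_mem E.one_mem _
  | add x y _ _ hx hy => rw [map_add]; exact E.add_mem hx hy
  | mul x y _ _ hx hy =>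
    rcases h with h | h
    · rw [h]; exact E.mul_mem hx hy
    · rw [h]; exact E.mul_mem hy hx

/-- `F[X̂]` is invariant -/
theorem inv_adjoin {A X : Subgroup G} (hX : ∀ a ∈ A, ∀ x ∈ X, a * x * a⁻¹ ∈ X) :
    Inv ι π A (Algebra.adjoin F (mt ι '' {s | π s ∈ X})) := by
  intro a ha τ hτ x hx
  refine tau_adjoin (ma_of_ind hτ) ?_ hx
  rintro _ ⟨s, hs, rfl⟩
  rcases hτ with ⟨-, h⟩ | ⟨-, h⟩
  · obtain ⟨s', h1, h2⟩ := h s
    rw [← h1]
    exact Algebra.subset_adjoin ⟨s', by rw [Set.mem_setOf_eq, h2]; exact hX a ha _ hs, rfl⟩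
  · obtain ⟨s', h1, h2⟩ := h s
    rw [← h1]
    refine Algebra.subset_adjoin ⟨s', ?_, rfl⟩
    rw [Set.mem_setOf_eq, ← inv_mem_iff, h2]
    exact hX a ha _ hs

/-- the centralizer of an invariant subalgebra is invariant -/
theorem inv_centralizer [Finite F] {A : Subgroup G} {E : Subalgebra F (Matrix (Fin n) (Fin n) F)} (hE : Inv ι π A E) :
    Inv ι π A (Subalgebra.centralizer F (E : Set (Matrix (Fin n) (Fin n) F))) := by
  intro a ha τ hτ x hx
  have hfin : Finite (Matrix (Fin n) (Fin n) F) := inferInstanceAs (Finite (Fin n → Fin n → F))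
  -- `τ` maps `E` onto `E`
  have hs : ∀ y ∈ E, ∃ z ∈ E, τ z = y := by
    have hfe : Finite ↥E := inferInstance
    have hinj : Function.Injective (fun z : ↥E => (⟨τ z, hE a ha τ hτ z z.2⟩ : ↥E)) := by
      intro z w hzw
      exact Subtype.ext (τ.injective (congrArg Subtype.val hzw))
    intro y hy
    obtain ⟨z, hz⟩ := (Finite.injective_iff_surjective.1 hinj) ⟨y, hy⟩
    exact ⟨z, z.2, congrArg Subtype.val hz⟩
  rw [Subalgebra.mem_centralizer_iff] at hx ⊢
  intro y hy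
  obtain ⟨z, hz, rfl⟩ := hs y hy
  rcases ma_of_ind hτ with h | h
  · rw [← h, ← h, hx z hz]
  · rw [← h, ← h, hx z hz]

end Cfsg.Agent.H968.TW
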