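import Cfsg.Agent.H502.TW.Tensor
import Cfsg.Agent.H607.TW.Alg
import Cfsg.Agent.H968.TW.FieldLoc

/-!
# S3694, T13: the nonabelian case, the group `K` (helper968)
-/

set_option autoImplicit false

namespace Cfsg.Agent.H968.TW

open Subgroup Cfsg.Agent.H607.TW

universe u

variable {G : Type u} [Group G] {N A X : Subgroup G} {r : ℕ} {F : Type} [Field F] {n : ℕ}
  {S : Type} [Group S] {ι : S →* Matrix.GeneralLinearGroup (Fin n) F} {π : S →* G}

/-- the preimage of `X` in `GL` -/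
def KX (ι : S →* Matrix.GeneralLinearGroup (Fin n) F) (π : S →* G) (X : Subgroup G) :
    Subgroup (Matrix.GeneralLinearGroup (Fin n) F) := (X.comap π).map ι

theorem coe_KX : (fun k : Matrix.GeneralLinearGroup (Fin n) F => (k : Matrix (Fin n) (Fin n) F)) ''
    (KX ι π X : Set (Matrix.GeneralLinearGroup (Fin n) F)) = H607.TW.mt ι '' {s | π s ∈ X} := by
  ext x
  constructor
  · rintro ⟨_, ⟨s, hs, rfl⟩, rfl⟩
    exact ⟨s, hs, rfl⟩
  · rintro ⟨s, hs, rfl⟩
    exact ⟨_, ⟨s, hs, rfl⟩, rfl⟩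

/-- the algebra generated by `X̂` is its span -/
theorem adjoin_eq_span : Subalgebra.toSubmodule (Algebra.adjoin F (H607.TW.mt ι '' {s | π s ∈ X})) =
    Submodule.span F (H607.TW.mt ι '' {s | π s ∈ X}) := by
  rw [Algebra.adjoin_eq_span]
  congr 1
  let M0 : Submonoid (Matrix (Fin n) (Fin n) F) :=
    { carrier := H607.TW.mt ι '' {s | π s ∈ X}
      one_mem' := ⟨1, by show π 1 ∈ X; rw [map_one]; exact X.one_mem, mt_one⟩
      mul_mem' := by
        rintro _ _ ⟨s, hs, rfl⟩ ⟨t, ht, rfl⟩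
        exact ⟨s * t, by show π (s * t) ∈ X; rw [map_mul]; exact X.mul_mem hs ht, mt_mul s t⟩ }
  have h : Submonoid.closure (H607.TW.mt ι '' {s | π s ∈ X}) = M0 := by
    apply le_antisymm
    · exact Submonoid.closure_le.2 fun x hx => hx
    · exact fun x hx => Submonoid.subset_closure hx
  rw [h]
  rfl

/-- commuting modulo scalars -/
theorem comm_scalar (hM : Model N ι π) {s t : S} (h : π s * π t = π t * π s) :
    ∃ c : F, H607.TW.mt ι s * H607.TW.mt ι t = c • (H607.TW.mt ι t * H607.TW.mt ι s) := by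
  obtain ⟨c, hc⟩ := mt_eq_smul hM (s := s * t) (t := t * s) (by rw [map_mul, map_mul, h])
  rw [mt_mul, mt_mul] at hc
  exact ⟨c, hc⟩

/-- `K` is twisted -/
theorem tw_K [Finite F] (hM : Model N ι π) (hX : MinX N A X r)
    (hnon : ∃ s t : S, π s ∈ X ∧ π t ∈ X ∧ s * t ≠ t * s) : Tw (KX ι π X) := by
  have hXn : ∀ a ∈ A, ∀ x ∈ X, a * x * a⁻¹ ∈ X := fun a ha x hx => conj_mem_of_norm hX.norm ha hx
  have hXc : ∀ x ∈ X, ∀ y ∈ X, x * y = y * x := fun x hx y hy => hX.comm x hx y (hX.le hy).1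
  -- the centre of `X̂`
  let Z : Subgroup S :=
    { carrier := {s | π s ∈ X ∧ ∀ t, π t ∈ X → s * t = t * s}
      one_mem' := ⟨by rw [map_one]; exact X.one_mem, fun t _ => by rw [one_mul, mul_one]⟩
      mul_mem' := by
        rintro a b ⟨ha, ha'⟩ ⟨hb, hb'⟩
        refine ⟨by rw [map_mul]; exact X.mul_mem ha hb, fun t ht => ?_⟩
        rw [mul_assoc, hb' t ht, ← mul_assoc, ha' t ht, mul_assoc]
      inv_mem' := by
        rintro a ⟨ha, ha'⟩
        refine ⟨by rw [map_inv]; exact X.inv_mem ha, fun t ht => ?_⟩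
        exact ((show Commute a t from ha' t ht).inv_left) }
  have hZX : Z.map π ≤ X := by
    rintro _ ⟨s, hs, rfl⟩
    exact hs.1
  -- it is invariant
  have hZn : A ≤ normalizer ((Z.map π : Subgroup G) : Set G) := by
    apply le_normalizer_of_conj
    rintro a ha _ ⟨s, hs, rfl⟩
    obtain ⟨B, σ, hBσ⟩ := hM.lift a
    obtain ⟨τ, hτ⟩ : ∃ τ, Ind ι π a τ := by
      rcases hBσ with h | h
      · exact ⟨_, h⟩
      · exact ⟨_, h⟩
    have hfS := hM.finite_S
    have hmem : ∀ s' : S, H607.TW.mt ι s' = τ (H607.TW.mt ι s) → π s' ∈ X → s' ∈ Z := by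
      intro s' h1 h2
      refine ⟨h2, fun t ht => ?_⟩
      apply hM.mt_inj
      rw [mt_mul, mt_mul]
      rcases ind_surj hM.inj hτ with ⟨hm, hs1⟩ | ⟨hm, hs1⟩
      · obtain ⟨t', h3, h4⟩ := hs1 t
        have h5 : π t' ∈ X := by
          have h6 := hXn a⁻¹ (A.inv_mem ha) _ ht
          rw [h4] at h6
          have h7 : a⁻¹ * (a * π t' * a⁻¹) * a⁻¹⁻¹ = π t' := by group
          rwa [h7] at h6
        rw [h1, h3, ← hm, ← hm, ← mt_mul, ← mt_mul, hs.2 t' h5]
      · obtain ⟨t', h3, h4⟩ := hs1 t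
        have h5 : π t' ∈ X := by
          have h6 := hXn a⁻¹ (A.inv_mem ha) _ (X.inv_mem ht)
          rw [h4] at h6
          have h7 : a⁻¹ * (a * π t' * a⁻¹) * a⁻¹⁻¹ = π t' := by group
          rwa [h7] at h6
        rw [h1, h3, ← hm, ← hm, ← mt_mul, ← mt_mul, hs.2 t' h5]
    rcases hτ with ⟨-, h⟩ | ⟨-, h⟩
    · obtain ⟨s', h1, h2⟩ := h s
      exact ⟨s', hmem s' h1 (by rw [h2]; exact hXn a ha _ hs.1), h2⟩
    · obtain ⟨s', h1, h2⟩ := h s
      have h3 : π s' ∈ X := by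
        rw [← X.inv_mem_iff, h2]
        exact hXn a ha _ hs.1
      refine ⟨s'⁻¹, Z.inv_mem (hmem s' h1 h3), ?_⟩
      rw [map_inv, h2]
  have hZbot : Z.map π = ⊥ := by
    by_contra hne
    have h1 := hX.min _ hZX hne hZn
    obtain ⟨s, t, hs, ht, hst⟩ := hnon
    apply hst
    rw [← h1] at hs
    obtain ⟨z, hz, hzs⟩ := hs
    obtain ⟨c, hc⟩ := mt_eq_smul hM hzs.symm
    apply hM.mt_inj
    rw [mt_mul, mt_mul, hc, smul_mul_assoc, mul_smul_comm, ← mt_mul, ← mt_mul, hz.2 t ht]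
  constructor
  · rintro _ ⟨s, hs, rfl⟩ _ ⟨t, ht, rfl⟩
    exact comm_scalar hM (hXc _ hs _ ht)
  · rintro _ ⟨s, hs, rfl⟩ hc
    have hsZ : s ∈ Z := by
      refine ⟨hs, fun t ht => ?_⟩
      apply hM.inj
      rw [map_mul, map_mul]
      exact hc _ ⟨t, ht, rfl⟩
    have h1 : π s ∈ Z.map π := ⟨s, hsZ, rfl⟩
    rw [hZbot, mem_bot] at h1
    exact (hM.ker s).1 h1

/-- `|X|` is the dimension of the span -/
theorem card_X [Fintype F] (hM : Model N ι π) (hX : MinX N A X r)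
    (hnon : ∃ s t : S, π s ∈ X ∧ π t ∈ X ∧ s * t ≠ t * s) :
    Nat.card ↥X = Module.finrank F ↥(Algebra.adjoin F (H607.TW.mt ι '' {s | π s ∈ X})) := by
  have hK := tw_K hM hX hnon
  let e : ↥(X.comap π) ≃* ↥(KX ι π X) := (X.comap π).equivMapOfInjective ι hM.inj
  let f : ↥(KX ι π X) →* G := (π.comp (X.comap π).subtype).comp e.symm.toMonoidHom
  have hfe : ∀ s : ↥(X.comap π), f (e s) = π s := by
    intro s
    show π ((X.comap π).subtype (e.symm (e s))) = π s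
    rw [e.symm_apply_apply]
    rfl
  have hecoe : ∀ s : ↥(X.comap π), ((e s : ↥(KX ι π X)) : Matrix.GeneralLinearGroup (Fin n) F) = ι s := fun s => rfl
  have hrange : f.range = X := by
    ext x
    constructor
    · rintro ⟨k, rfl⟩
      obtain ⟨s, rfl⟩ := e.surjective k
      rw [hfe]
      exact s.2
    · intro hx
      obtain ⟨s, rfl⟩ := hM.exists_pre (hX.le hx).2
      exact ⟨e ⟨s, hx⟩, hfe _⟩
  have hker : ∀ k : ↥(KX ι π X), k ∈ f.ker ↔ ∃ c : F, ((k : Matrix.GeneralLinearGroup (Fin n) F) :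
      Matrix (Fin n) (Fin n) F) = c • 1 := by
    intro k
    obtain ⟨s, rfl⟩ := e.surjective k
    rw [MonoidHom.mem_ker, hfe, hecoe]
    exact hM.ker s
  have h1 := Cfsg.Agent.H502.TW.tw_card hM.pos hK f.ker hker
  rw [Subgroup.index_ker, hrange, coe_KX, ← adjoin_eq_span] at h1
  exact h1

end Cfsg.Agent.H968.TW
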